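import Groth.Agent.Gaga.H874.LocNull

/-!
# A sheaf of finite presentation supported on `V(J)` is locally killed by a power of `J`

* `idealAt_eq`: the ideal of the holomorphic stalk generated by an ideal sheaf is generated by the
  sections over any affine open neighbourhood;
* `killed_near`: [RNX].
-/

set_option autoImplicit false

open CategoryTheory AlgebraicGeometry TopologicalSpace Opposite Topology Filter
open Groth.Agent.An.H863.PtsBasic Groth.Agent.An.H863.PtsCont

noncomputable section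

namespace Groth.Agent.Gaga.H874.RNX

open Groth.Agent.Gaga.H975.ModSec Groth.Agent.Gaga.H986.Stalk Groth.Agent.Gaga.H986.Pull
open Groth.Agent.Gaga.H976.Defs Groth.Agent.Gaga.H986.Nak Groth.Agent.Gaga.H874.LocNull
open Groth.Agent.Gaga.H976

variable {X : Scheme.{0}} [X.Over An.SC]

/-- `holGerm` and restriction. -/
theorem holGerm_res (x : An.Pts X) {U V : X.Opens} (h : V ≤ U) (hx : x.pt ∈ V) (f : Γ(X, U)) :
    holGerm x V hx (X.presheaf.map (homOfLE h).op f) = holGerm x U (h hx) f := by
  have h1 : (An.toHolApp V).hom (X.presheaf.map (homOfLE h).op f) =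
      resO (R := An.hol X) (W := (An.baseF X).obj V) (V := (An.baseF X).obj U) (fun y hy => h hy)
        ((An.toHolApp U).hom f) := by
    apply Subtype.ext
    funext y
    exact An.ev_res y.1 h y.2 f
  change gmO (An.hol X) x ((An.baseF X).obj V) hx ((An.toHolApp V).hom _) =
    gmO (An.hol X) x ((An.baseF X).obj U) _ ((An.toHolApp U).hom f)
  rw [h1, gmO_resO]

theorem holGerm_comp_res (x : An.Pts X) {U V : X.Opens} (h : V ≤ U) (hx : x.pt ∈ V) :
    (holGerm x V hx).comp (X.presheaf.map (homOfLE h).op).hom = holGerm x U (h hx) :=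
  RingHom.ext fun f => holGerm_res x h hx f

/-- The ideal of the stalk is generated by the sections over any affine neighbourhood. -/
theorem idealAt_eq (I : X.IdealSheafData) (x : An.Pts X) (U : X.affineOpens) (hx : x.pt ∈ U.1) :
    idealAt I x = (I.ideal U).map (holGerm x U.1 hx) := by
  apply le_antisymm
  · refine iSup_le fun V => iSup_le fun hV => ?_
    obtain ⟨f, g, hfg, hxf⟩ := exists_basicOpen_le_affine_inter V.2 U.2 x.pt ⟨hV, hx⟩
    have hD : IsAffineOpen (X.basicOpen f) := V.2.basicOpen f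
    have e1 := I.map_ideal (U := ⟨X.basicOpen f, hD⟩) (V := V) (X.basicOpen_le f)
    have e2 := I.map_ideal (U := ⟨X.basicOpen f, hD⟩) (V := U)
      (show X.basicOpen f ≤ U.1 by rw [hfg]; exact X.basicOpen_le g)
    have e3 : (I.ideal V).map (holGerm x V.1 hV) =
        (I.ideal ⟨X.basicOpen f, hD⟩).map (holGerm x (X.basicOpen f) hxf) := by
      rw [← e1, Ideal.map_map]
      exact congrArg (fun φ => (I.ideal V).map φ)
        (holGerm_comp_res x (U := V.1) (V := X.basicOpen f) (X.basicOpen_le f) hxf).symm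
    have e4 : (I.ideal U).map (holGerm x U.1 hx) =
        (I.ideal ⟨X.basicOpen f, hD⟩).map (holGerm x (X.basicOpen f) hxf) := by
      rw [← e2, Ideal.map_map]
      exact congrArg (fun φ => (I.ideal U).map φ)
        (holGerm_comp_res x (U := U.1) (V := X.basicOpen f)
          (show X.basicOpen f ≤ U.1 by rw [hfg]; exact X.basicOpen_le g) hxf).symm
    rw [e3, e4]
  · exact le_iSup_of_le U (le_iSup_of_le hx le_rfl)

/-- The holomorphic function attached to a regular function, on a smaller open. -/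
def holOn (U : X.Opens) (V : Opens (An.top X)) (hV : V ≤ (An.baseF X).obj U) :
    Γ(X, U) →+* O (An.hol X) V :=
  (resO (R := An.hol X) hV).comp (An.toHolApp U).hom

theorem val_holOn (U : X.Opens) (V : Opens (An.top X)) (hV : V ≤ (An.baseF X).obj U) (f : Γ(X, U))
    (y : An.Pts X) (hy : y ∈ V) : val V y hy (holOn U V hV f) = y.ev U (hV hy) f := rfl

theorem gmO_holOn (U : X.Opens) (V : Opens (An.top X)) (hV : V ≤ (An.baseF X).obj U) (f : Γ(X, U))
    (y : An.Pts X) (hy : y ∈ V) : gmO (An.hol X) y V hy (holOn U V hV f) = holGerm y U (hV hy) f :=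
  gmO_resO y hV hy _

theorem killed_near_fp [LocallyOfFiniteType (X ↘ An.SC)]
    (N : An.AnMod X) (J : X.IdealSheafData) (x : An.Pts X) (hN : TM3.FPAt N x)
    (h : ∀ x : An.Pts X, x.pt ∉ J.support → Subsingleton (St (R := An.hol X) N x)) :
    ∃ (V : Opens (An.top X)) (_ : x ∈ V) (k : ℕ), ∀ y ∈ V, ∀ b ∈ (idealAt J y) ^ k,
      ∀ t : St (R := An.hol X) N y, b • t = 0 := by
  classical
  obtain ⟨W, hxW, n, m, s, μ, hg, hμ, hev⟩ := FPMinor.exists_minors (R := An.hol X) N x hN
  obtain ⟨_, ⟨U, hU, rfl⟩, hxU, -⟩ :=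
    X.isBasis_affineOpens.exists_subset_of_mem_open (Set.mem_univ x.pt) isOpen_univ
  -- generators of the ideal
  have hfg : (J.ideal ⟨U, hU⟩).FG := by
    obtain ⟨n', s', hs'⟩ := Groth.Agent.An.H862.AffTop.exists_gen U hU
    have : IsNoetherianRing Γ(X, U) := isNoetherianRing_of_surjective _ _ _ hs'
    exact (isNoetherianRing_iff_ideal_fg _).1 this _
  obtain ⟨F, hF⟩ := hfg
  let W' : Opens (An.top X) := W ⊓ (An.baseF X).obj U
  have hxW' : x ∈ W' := ⟨hxW, hxU⟩
  have key : ∀ f : F, ∃ (V : Opens (An.top X)) (_ : x ∈ V) (hV : V ≤ W') (k : ℕ)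
      (c : (Fin n → Fin m) → O (An.hol X) V),
      resO hV (holOn U W' inf_le_right f.1) ^ k =
        ∑ i, c i * resO hV (resO (inf_le_left : W' ≤ W) (μ i)) := by
    intro f
    refine nullst x W' hxW' (fun i => resO (inf_le_left : W' ≤ W) (μ i))
      (holOn U W' inf_le_right f.1) fun y hy hzero => ?_
    by_contra hne
    rw [val_holOn] at hne
    have hyU : y.pt ∈ U := hy.2
    have hys : y.pt ∉ J.support := by
      intro hmem
      rw [Scheme.IdealSheafData.mem_support_iff_of_mem (U := ⟨U, hU⟩) hyU] at hmem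
      have h1 := (Scheme.mem_zeroLocus_iff (X := X) _ _).1 hmem f.1 (by
        rw [← hF]; exact Ideal.subset_span f.2)
      exact h1 ((ev_ne_zero_iff y U hy.2 f.1).1 hne)
    obtain ⟨σ, hσ⟩ := hev y hy.1 ℂ (valSt y) (h y hys)
    apply hσ
    rw [valSt_gmO]
    exact hzero σ
  choose V hxV hVW k c hc using key
  obtain ⟨V', hxV', hV'W, hV'⟩ := exists_fin_inter V hxV W' hxW'
  -- the annihilator of the generators over `V'`
  let A : Ideal (O (An.hol X) V') :=
    { carrier := {a | ∀ j, a • res (R := An.hol X) N (hV'W.trans inf_le_left) (s j) = 0}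
      add_mem' := fun {a b} ha hb j => by rw [add_smul, ha j, hb j, add_zero]
      zero_mem' := fun j => zero_smul _ _
      smul_mem' := fun r a ha j => by rw [smul_eq_mul, mul_smul, ha j, smul_zero] }
  have hμA : ∀ σ, resO (hV'W.trans inf_le_left) (μ σ) ∈ A := by
    intro σ j
    rw [← res_smul, hμ, map_zero]
  let I' : Ideal (O (An.hol X) V') := (J.ideal ⟨U, hU⟩).map (holOn U V' (hV'W.trans inf_le_right))
  have hI' : I' ≤ A.radical := by
    rw [Ideal.map_le_iff_le_comap, ← hF, Ideal.span_le]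
    intro f hf
    refine ⟨k ⟨f, hf⟩, ?_⟩
    have h1 := congrArg (resO (hV' ⟨f, hf⟩)) (hc ⟨f, hf⟩)
    rw [map_pow, resO_resO, map_sum] at h1
    have h2 : resO ((hV' ⟨f, hf⟩).trans (hVW ⟨f, hf⟩)) (holOn U W' inf_le_right f) =
        holOn U V' (hV'W.trans inf_le_right) f := rfl
    rw [h2] at h1
    rw [h1]
    refine Ideal.sum_mem _ fun i _ => ?_
    rw [map_mul, resO_resO, resO_resO]
    exact Ideal.mul_mem_left _ _ (hμA i)
  have hfg' : I'.FG := by
    have : (J.ideal ⟨U, hU⟩).FG := ⟨F, hF⟩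
    exact this.map _
  obtain ⟨K, hK⟩ := Ideal.exists_pow_le_of_le_radical_of_fg hI' hfg'
  refine ⟨V', hxV', K, fun y hy b hb t => ?_⟩
  have e1 : idealAt J y = I'.map (gmO (An.hol X) y V' hy) := by
    rw [idealAt_eq J y ⟨U, hU⟩ (hV'W hy).2, Ideal.map_map]
    exact congrArg (fun φ => (J.ideal ⟨U, hU⟩).map φ)
      (RingHom.ext fun f => (gmO_holOn U V' (hV'W.trans inf_le_right) f y hy).symm)
  rw [e1, ← Ideal.map_pow] at hb
  have hb2 : b ∈ A.map (gmO (An.hol X) y V' hy) := Ideal.map_mono hK hb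
  have hspan := hg.res (hV'W.trans inf_le_left) y hy
  have hA : A.map (gmO (An.hol X) y V' hy) ≤
      Module.annihilator (StO (An.hol X) y) (St (R := An.hol X) N y) := by
    rw [Ideal.map_le_iff_le_comap]
    intro a ha
    rw [Ideal.mem_comap, Module.mem_annihilator]
    intro t
    have ht : t ∈ (⊤ : Submodule (StO (An.hol X) y) (St (R := An.hol X) N y)) := trivial
    rw [← hspan] at ht
    induction ht using Submodule.span_induction with
    | mem t ht =>
      obtain ⟨j, rfl⟩ := ht
      rw [← gm_smul, ha j, map_zero]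
    | zero => rw [smul_zero]
    | add t u _ _ ht hu => rw [smul_add, ht, hu, add_zero]
    | smul r t _ ht => rw [smul_comm, ht, smul_zero]
  exact Module.mem_annihilator.1 (hA hb2) t

/-- **[RNX]** -/
theorem killed_near [LocallyOfFiniteType (X ↘ An.SC)]
    (N : An.AnMod X) (hN : N.IsFinitePresentation) (J : X.IdealSheafData)
    (h : ∀ x : An.Pts X, x.pt ∉ J.support → Subsingleton (St (R := An.hol X) N x)) (x : An.Pts X) :
    ∃ (V : Opens (An.top X)) (_ : x ∈ V) (k : ℕ), ∀ y ∈ V, ∀ b ∈ (idealAt J y) ^ k,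
      ∀ t : St (R := An.hol X) N y, b • t = 0 :=
  killed_near_fp N J x ((TM3.isFinitePresentation_iff N).1 hN x) h

end Groth.Agent.Gaga.H874.RNX
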