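import Mathlib.LinearAlgebra.Matrix.NonsingularInverse
import Mathlib.LinearAlgebra.Matrix.Determinant.Basic

/-!
# Maximal minors of a matrix of relations
-/

set_option autoImplicit false

namespace Groth.Agent.Gaga.H874.Minors

/-- The determinant of a square matrix of relations kills the generators. -/
theorem det_smul_eq_zero {R M : Type*} [CommRing R] [AddCommGroup M] [Module R M] {n : ℕ}
    (A : Matrix (Fin n) (Fin n) R) (s : Fin n → M) (h : ∀ i, ∑ j, A i j • s j = 0) (l : Fin n) :
    A.det • s l = 0 := by
  have h1 : ∑ i, A.adjugate l i • ∑ j, A i j • s j = 0 := by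
    simp only [h, smul_zero, Finset.sum_const_zero]
  have h2 : ∑ i, A.adjugate l i • ∑ j, A i j • s j = ∑ j, (A.adjugate * A) l j • s j := by
    simp only [Matrix.mul_apply, Finset.sum_smul, Finset.smul_sum, smul_smul]
    rw [Finset.sum_comm]
  rw [h2, Matrix.adjugate_mul] at h1
  have h3 : ∑ j, (A.det • (1 : Matrix (Fin n) (Fin n) R)) l j • s j = A.det • s l := by
    rw [Finset.sum_eq_single l]
    · simp
    · intro j _ hj
      rw [Matrix.smul_apply, Matrix.one_apply_ne (Ne.symm hj), smul_zero, zero_smul]
    · intro h; exact absurd (Finset.mem_univ l) h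
  rw [← h3, h1]

/-- A matrix with a left inverse has a nonzero maximal minor. -/
theorem exists_minor_ne_zero {K : Type*} [CommRing K] [Nontrivial K] {n m : ℕ}
    (D : Matrix (Fin n) (Fin m) K) (R : Matrix (Fin m) (Fin n) K) (h : D * R = 1) :
    ∃ σ : Fin n → Fin m, (Matrix.of fun i j => R (σ i) j).det ≠ 0 := by
  classical
  by_contra hcon
  push Not at hcon
  have h1 : (D * R).det = ∑ σ : Fin n → Fin m, (∏ i, D i (σ i)) •
      (Matrix.of fun i j => R (σ i) j).det := by
    have e1 : (D * R) = Matrix.of (fun i => ∑ k, D i k • R k) := by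
      ext i j
      simp [Matrix.mul_apply, Finset.sum_apply]
    have e2 : (D * R).det = Matrix.detRowAlternating (R := K) (n := Fin n)
        (fun i => ∑ k, D i k • R k) := by rw [e1]; rfl
    rw [e2]
    have e3 := (Matrix.detRowAlternating (R := K) (n := Fin n)).toMultilinearMap.map_sum
      (fun (i : Fin n) (k : Fin m) => D i k • R k)
    refine e3.trans (Finset.sum_congr rfl fun σ _ => ?_)
    exact (Matrix.detRowAlternating (R := K) (n := Fin n)).toMultilinearMap.map_smul_univ
      (fun i => D i (σ i)) (fun i => R (σ i))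
  rw [h, Matrix.det_one] at h1
  simp only [hcon, smul_zero, Finset.sum_const_zero] at h1
  exact one_ne_zero h1

end Groth.Agent.Gaga.H874.Minors
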