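import Groth.Agent.Gaga.H976.Defs
import Groth.Agent.Gaga.H874.Minors

/-!
# Maximal minors of the relations of a module of finite presentation on a ringed space

The minors kill the module, and at a point where the stalk vanishes one of them is nonzero modulo
any prime.
-/

set_option autoImplicit false

open CategoryTheory TopologicalSpace Opposite

noncomputable section

namespace Groth.Agent.Gaga.H874.FPMinor

open Groth.Agent.Gaga.H975.ModSec Groth.Agent.Gaga.H986.Stalk Groth.Agent.Gaga.H986.Nak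
open Groth.Agent.Gaga.H976

variable {T : TopCat.{0}} {R : TopCat.Sheaf CommRingCat.{0} T}

/-- Elementwise presentation, in the language of `Sec` and `O`. -/
theorem exists_pres (N : Mod R) (x : T) (h : TM3.FPAt N x) :
    ∃ (W : Opens T) (_ : x ∈ W) (n m : ℕ) (s : Fin n → Sec N W) (r : Fin m → Fin n → O R W),
      Gen N s ∧ (∀ k, ∑ j, r k j • s j = 0) ∧
      ∀ (V : Opens T) (hV : V ≤ W) (c : Fin n → O R V),
        ∑ j, c j • res N hV (s j) = 0 → ∀ y ∈ V, ∃ (V' : Opens T) (h' : V' ≤ V), y ∈ V' ∧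
          ∃ d : Fin m → O R V', ∀ j, resO h' (c j) = ∑ k, d k * resO (h'.trans hV) (r k j) := by
  obtain ⟨W, hx, n, m, s, r, hg, hr⟩ := h
  refine ⟨W, hx, n, m, s, r, ?_, hr.1, hr.2⟩
  rw [gen_iff]
  intro y U hU hy t
  obtain ⟨V', h', hy', c, hc⟩ := hg U hU t y hy
  exact ⟨V', hy', h', c, hc⟩

/-- The maximal minors of the relations. -/
theorem exists_minors (N : Mod R) (x : T) (h : TM3.FPAt N x) :
    ∃ (W : Opens T) (_ : x ∈ W) (n m : ℕ) (s : Fin n → Sec N W)
      (μ : (Fin n → Fin m) → O R W), Gen N s ∧ (∀ σ j, μ σ • s j = 0) ∧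
      ∀ (y : T) (hy : y ∈ W) (K : Type) [Field K] (ev : StO R y →+* K),
        Subsingleton (St N y) → ∃ σ, ev (gmO R y W hy (μ σ)) ≠ 0 := by
  classical
  obtain ⟨W, hx, n, m, s, r, hg, hr, hr'⟩ := exists_pres N x h
  refine ⟨W, hx, n, m, s, fun σ => (Matrix.of fun i j => r (σ i) j).det, hg, ?_, ?_⟩
  · intro σ j
    exact Minors.det_smul_eq_zero _ s (fun i => hr (σ i)) j
  · intro y hy K _ ev hsub
    -- the generators vanish near `y`
    obtain ⟨V, hyV, hVW, hV⟩ := exists_res_eq_fin N hy (s := s) (t := fun _ => 0)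
      (fun i => Subsingleton.elim _ _)
    have key : ∀ i : Fin n, ∃ (V' : Opens T) (h' : V' ≤ V), y ∈ V' ∧
        ∃ d : Fin m → O R V', ∀ j, resO h' ((Pi.single i 1 : Fin n → O R V) j) =
          ∑ k, d k * resO (h'.trans hVW) (r k j) := by
      intro i
      refine hr' V hVW (Pi.single i 1) ?_ y hyV
      refine Finset.sum_eq_zero fun j _ => ?_
      rw [hV j, map_zero, smul_zero]
    choose V' h' hyV' d hd using key
    let D : Matrix (Fin n) (Fin m) K := fun i k => ev (gmO R y (V' i) (hyV' i) (d i k))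
    let B : Matrix (Fin m) (Fin n) K := fun k j => ev (gmO R y W hy (r k j))
    have hDB : D * B = 1 := by
      ext i j
      have h1 := congrArg (fun t => ev (gmO R y (V' i) (hyV' i) t)) (hd i j)
      simp only [gmO_resO, map_sum, map_mul] at h1
      rw [Matrix.mul_apply]
      refine h1.symm.trans ?_
      rw [Matrix.one_apply, Pi.single_apply]
      split_ifs with h2 h3 h3
      · rw [map_one, map_one]
      · exact absurd h2.symm h3
      · exact absurd h3.symm h2
      · rw [map_zero, map_zero]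
    obtain ⟨σ, hσ⟩ := Minors.exists_minor_ne_zero D B hDB
    refine ⟨σ, ?_⟩
    rw [RingHom.map_det, RingHom.map_det]
    exact hσ

end Groth.Agent.Gaga.H874.FPMinor
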