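import Groth.Agent.Gaga.H145.Surj
import Groth.Agent.Gaga.H178.Rueckert
import Groth.Agent.Gaga.H874.FPMinor
import Mathlib.Topology.Germ
import Mathlib.RingTheory.Polynomial.Basic

/-!
# The analytic Nullstellensatz on `X(ℂ)`, locally
-/

set_option autoImplicit false

open CategoryTheory AlgebraicGeometry TopologicalSpace Opposite Topology Filter
open Groth.Agent.An.H863.PtsBasic Groth.Agent.An.H863.PtsCont

noncomputable section

namespace Groth.Agent.Gaga.H874.LocNull

open Groth.Agent.Gaga.H975.ModSec Groth.Agent.Gaga.H986.Stalk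
open Groth.Agent.Gaga.H990.ChartAt Groth.Agent.Gaga.H990.Stalk Groth.Agent.Gaga.H145.Surj

variable {X : Scheme.{0}} [X.Over An.SC]

/-- The value of a holomorphic function at a point. -/
def val (W : Opens (An.top X)) (y : An.Pts X) (hy : y ∈ W) : O (An.hol X) W →+* ℂ where
  toFun g := (show An.holSub W from g).1 ⟨y, hy⟩
  map_one' := rfl
  map_mul' _ _ := rfl
  map_zero' := rfl
  map_add' _ _ := rfl

theorem val_def (W : Opens (An.top X)) (y : An.Pts X) (hy : y ∈ W) (g : O (An.hol X) W) :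
    val W y hy g = ext0 W (show An.holSub W from g).1 y := (ext0_of_mem _ hy).symm

theorem val_res {W V : Opens (An.top X)} (h : V ≤ W) (y : An.Pts X) (hy : y ∈ V)
    (g : O (An.hol X) W) : val V y hy (resO h g) = val W y (h hy) g := rfl

theorem ext_val {W : Opens (An.top X)} {f g : O (An.hol X) W}
    (h : ∀ (y : An.Pts X) (hy : y ∈ W), val W y hy f = val W y hy g) : f = g :=
  Subtype.ext (funext fun y => h y.1 y.2)

/-- The value of a germ. -/
def valSt (y : An.Pts X) : StO (An.hol X) y →+* ℂ :=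
  (Filter.Germ.valueRingHom (E := ℂ) (x := y)).comp (toGerm y)

theorem valSt_gmO (W : Opens (An.top X)) (y : An.Pts X) (hy : y ∈ W) (g : O (An.hol X) W) :
    valSt y (gmO (An.hol X) y W hy g) = val W y hy g := by
  rw [val_def]
  have h1 : toGerm y (gmO (An.hol X) y W hy g) =
      ((ext0 W (show An.holSub W from g).1 : An.Pts X → ℂ) : (𝓝 y).Germ ℂ) := toGerm_germ hy g
  change Filter.Germ.valueRingHom (E := ℂ) (x := y) (toGerm y (gmO (An.hol X) y W hy g)) = _
  rw [h1]
  rfl

/-- A holomorphic function is, near a point, a function of fixed generators. -/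
theorem exists_fun {U : X.Opens} (hU : IsAffineOpen U) {n : ℕ} (s : Fin n → Γ(X, U))
    (hs : Function.Surjective (MvPolynomial.eval₂Hom (strU U) s)) {x : An.Pts X} (hx : x.pt ∈ U)
    {W : Opens (An.top X)} (hxW : x ∈ W) (g : O (An.hol X) W) :
    ∃ G : (Fin n → ℂ) → ℂ, (∀ᶠ c in 𝓝 (vals U s x), DifferentiableAt ℂ G c) ∧
      ∀ᶠ z in 𝓝 x, ∃ hz : z ∈ W, val W z hz g = G (vals U s z) := by
  obtain ⟨G, hG, h⟩ := exists_fun_of_chartAt hU s hs hx
    ((holPred_iff (show An.holSub W from g).1).1 (show An.holSub W from g).2 x hxW)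
  refine ⟨G, hG, ?_⟩
  filter_upwards [h, W.isOpen.mem_nhds hxW] with z hz hzW
  exact ⟨hzW, by rw [val_def]; exact hz⟩

/-- The points near `s(x)` satisfying the equations come from complex points near `x`. -/
theorem exists_lift [LocallyOfFiniteType (X ↘ An.SC)] {U : X.Opens} (hU : IsAffineOpen U)
    {n : ℕ} (s : Fin n → Γ(X, U))
    (hs : Function.Surjective (MvPolynomial.eval₂Hom (strU U) s)) {x : An.Pts X} (hx : x.pt ∈ U)
    {S : Set (An.Pts X)} (hS : S ∈ 𝓝 x) :
    ∃ D ∈ 𝓝 (vals U s x), ∀ z ∈ D, (∀ p ∈ RingHom.ker (MvPolynomial.eval₂Hom (strU U) s),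
      MvPolynomial.eval z p = 0) → ∃ y ∈ S, y.pt ∈ U ∧ vals U s y = z := by
  have hemb := (Groth.Agent.An.H862.AffTop.isClosedEmbedding_opens U hU s hs)
  have h1 : (Subtype.val : {x : An.Pts X // x.pt ∈ U} → An.Pts X) ⁻¹' S ∈
      𝓝 (⟨x, hx⟩ : {x : An.Pts X // x.pt ∈ U}) :=
    continuous_subtype_val.continuousAt.preimage_mem_nhds hS
  rw [hemb.isInducing.nhds_eq_comap] at h1
  obtain ⟨D, hD, hDS⟩ := h1
  have h2 : (fun i => x.ev U hx (s i)) = vals U s x := by
    funext i
    exact (evAt_of_mem hx _).symm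
  refine ⟨D, by rw [← h2]; exact hD, fun z hz hp => ?_⟩
  let φ : Γ(X, U) →+* ℂ :=
    RingHom.liftOfSurjective (MvPolynomial.eval₂Hom (strU U) s) hs
      ⟨MvPolynomial.eval z, by
        intro p hp'
        exact hp p hp'⟩
  have hφ : ∀ p, φ (MvPolynomial.eval₂Hom (strU U) s p) = MvPolynomial.eval z p := by
    intro p
    exact RingHom.liftOfRightInverse_comp_apply _ _ _ _ p
  have hφc : ∀ c, φ (strU U c) = c := by
    intro c
    have := hφ (MvPolynomial.C c)
    rw [MvPolynomial.coe_eval₂Hom, MvPolynomial.eval₂_C, MvPolynomial.eval_C] at this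
    exact this
  obtain ⟨y, hy, hev⟩ := Groth.Agent.An.H867.Nhds.exists_pts_of_ringHom U hU φ hφc
  have hyz : (fun i => y.ev U hy (s i)) = z := by
    funext i
    rw [← evHom_apply, hev]
    have := hφ (MvPolynomial.X i)
    rw [MvPolynomial.coe_eval₂Hom, MvPolynomial.eval₂_X, MvPolynomial.eval_X] at this
    exact this
  refine ⟨y, ?_, hy, ?_⟩
  · have : (⟨y, hy⟩ : {x : An.Pts X // x.pt ∈ U}) ∈
        (fun (x : {x : An.Pts X // x.pt ∈ U}) (i : Fin n) => x.1.ev U x.2 (s i)) ⁻¹' D := by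
      change (fun i => y.ev U hy (s i)) ∈ D
      rw [hyz]
      exact hz
    exact hDS this
  · rw [← hyz]
    funext i
    exact evAt_of_mem hy _

/-- **Local Nullstellensatz on `X(ℂ)`.** -/
theorem nullst [LocallyOfFiniteType (X ↘ An.SC)] (x : An.Pts X) (W : Opens (An.top X))
    (hxW : x ∈ W) {ι : Type*} [Fintype ι] (g : ι → O (An.hol X) W) (f : O (An.hol X) W)
    (hfg : ∀ (y : An.Pts X) (hy : y ∈ W), (∀ i, val W y hy (g i) = 0) → val W y hy f = 0) :
    ∃ (V : Opens (An.top X)) (_ : x ∈ V) (hV : V ≤ W) (k : ℕ) (c : ι → O (An.hol X) V),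
      resO hV f ^ k = ∑ i, c i * resO hV (g i) := by
  classical
  obtain ⟨U, hU, hxU, n, s, hs⟩ := exists_gens x
  obtain ⟨F, hF, hFe⟩ := exists_fun hU s hs hxU hxW f
  choose G hG hGe using fun i => exists_fun hU s hs hxU hxW (g i)
  obtain ⟨p, hp⟩ : ∃ p : Finset (MvPolynomial (Fin n) ℂ),
      Ideal.span (p : Set (MvPolynomial (Fin n) ℂ)) =
        RingHom.ker (MvPolynomial.eval₂Hom (strU U) s) :=
    (isNoetherianRing_iff_ideal_fg _).1 inferInstance _
  -- neighbourhood of `x`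
  have hS : ∀ᶠ z in 𝓝 x, (∃ hz : z ∈ W, val W z hz f = F (vals U s z)) ∧
      (∀ i, ∃ hz : z ∈ W, val W z hz (g i) = G i (vals U s z)) ∧ z.pt ∈ U := by
    filter_upwards [hFe, eventually_all.2 hGe, (An.Pts.isOpen_preimage_pt U).mem_nhds hxU]
      with z h1 h2 h3
    exact ⟨h1, h2, h3⟩
  obtain ⟨D, hD, hDS⟩ := exists_lift hU s hs hxU hS
  have hD2 : ∀ᶠ c in 𝓝 (vals U s x), c ∈ D ∧ DifferentiableAt ℂ F c ∧
      ∀ i, DifferentiableAt ℂ (G i) c := by
    filter_upwards [hD, hF, eventually_all.2 hG] with c h1 h2 h3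
    exact ⟨h1, h2, h3⟩
  obtain ⟨D', hD'1, hD'2, hD'3⟩ := eventually_nhds_iff.1 hD2
  obtain ⟨k, V₁, hV₁, hxV₁, hV₁D', h, hh, he⟩ :=
    Groth.Agent.Gaga.H178.Rueckert.nullstellensatz (ι := ι ⊕ p) hD'2 hD'3
      (Sum.elim G (fun q z => MvPolynomial.eval z q.1)) F
      (by
        rintro (i | q)
        · exact fun c hc => ((hD'1 c hc).2.2 i).differentiableWithinAt
        · exact (differentiable_eval q.1).differentiableOn)
      (fun c hc => (hD'1 c hc).2.1.differentiableWithinAt)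
      (by
        intro z hz hzero
        obtain ⟨y, ⟨⟨hyW, hyf⟩, hyg, -⟩, hyU, rfl⟩ := hDS z (hD'1 z hz).1 (by
          intro q hq
          rw [← hp] at hq
          have hle : Ideal.span (p : Set (MvPolynomial (Fin n) ℂ)) ≤
              RingHom.ker (MvPolynomial.eval z) := by
            rw [Ideal.span_le]
            intro q hq
            exact hzero (Sum.inr ⟨q, hq⟩)
          exact hle hq)
        rw [← hyf]
        refine hfg y hyW fun i => ?_
        obtain ⟨_, h1⟩ := hyg i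
        rw [h1]
        exact hzero (Sum.inl i))
  -- the neighbourhood of `x`
  have hev : ∀ᶠ z in 𝓝 x, (((∃ hz : z ∈ W, val W z hz f = F (vals U s z)) ∧
      (∀ i, ∃ hz : z ∈ W, val W z hz (g i) = G i (vals U s z)) ∧ z.pt ∈ U) ∧
      vals U s z ∈ V₁) :=
    hS.and ((continuousAt_vals U s hxU).eventually (hV₁.mem_nhds hxV₁))
  obtain ⟨V, hV1, hV2, hV3⟩ := eventually_nhds_iff.1 hev
  let V' : Opens (An.top X) := ⟨V, hV2⟩
  have hV'W : V' ≤ W := fun z hz => (hV1 z hz).1.1.1
  refine ⟨V', hV3, hV'W, k, fun i => (show O (An.hol X) V' from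
    ⟨fun z => h (Sum.inl i) (vals U s z.1), holPred_of_chartAt (fun z => h (Sum.inl i) (vals U s z))
      fun z hz => chartAt_comp_vals s (hV1 z hz).1.2.2 ?_⟩), ?_⟩
  · filter_upwards [hV₁.mem_nhds (hV1 z hz).2] with c hc
    exact (hh (Sum.inl i)).differentiableAt (hV₁.mem_nhds hc)
  · refine ext_val fun y hy => ?_
    rw [map_pow, map_sum]
    simp only [map_mul]
    obtain ⟨⟨⟨hyW, hyf⟩, hyg, hyU⟩, hyV⟩ := hV1 y hy
    rw [val_res hV'W y hy f, hyf, he _ hyV, Fintype.sum_sum_type]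
    have h0 : ∀ q : p, h (Sum.inr q) (vals U s y) *
        Sum.elim G (fun (q : p) z => MvPolynomial.eval z q.1) (Sum.inr q) (vals U s y) = 0 := by
      intro q
      have hq : q.1 ∈ RingHom.ker (MvPolynomial.eval₂Hom (strU U) s) := by
        rw [← hp]; exact Ideal.subset_span q.2
      have h1 : MvPolynomial.eval (vals U s y) q.1 = 0 := by
        rw [← evAt_eval₂ U s q.1 hyU, RingHom.mem_ker.1 hq, evAt_zero]
      change h (Sum.inr q) (vals U s y) * MvPolynomial.eval (vals U s y) q.1 = 0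
      rw [h1, mul_zero]
    rw [Finset.sum_eq_zero fun q _ => h0 q, add_zero]
    refine Finset.sum_congr rfl fun i _ => ?_
    obtain ⟨_, hi⟩ := hyg i
    rw [val_res hV'W y hy (g i), hi]
    rfl

end Groth.Agent.Gaga.H874.LocNull
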